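import Cfsg.Agent.H675.PPart
import Cfsg.Agent.H678.GoodDef

/-!
# Fact A for linear and unitary groups, number theory

If `d * c = q ^ (n(n-1)/2) * ∏_{i=2}^{n} |Q ^ i - 1|` with `Q = ±q`, `d ∣ |Q - 1|`, then the square of
each prime power dividing `c` is less than `c` (small exceptions excluded).
-/

set_option autoImplicit false

namespace Cfsg.Agent.H675

open Finset

/-- the `p'`-part -/
def cop (p n : ℕ) : ℕ := n / part p n

theorem part_mul_cop (p n : ℕ) : part p n * cop p n = n := Nat.mul_div_cancel' (part_dvd p n)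

theorem cop_pos {p n : ℕ} (hn : n ≠ 0) : 0 < cop p n := by
  rcases Nat.eq_zero_or_pos (cop p n) with h | h
  · exfalso
    have := part_mul_cop p n
    rw [h, mul_zero] at this
    exact hn this.symm
  · exact h

theorem dvd_cop {p n k : ℕ} (hp : p.Prime) (hk : k ∣ n) (hpk : ¬ p ∣ k) : k ∣ cop p n := by
  have h1 : k ∣ part p n * cop p n := by rw [part_mul_cop]; exact hk
  have h2 : Nat.Coprime k (part p n) :=
    (Nat.Coprime.pow_left _ ((hp.coprime_iff_not_dvd).2 hpk)).symm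
  exact h2.dvd_of_dvd_mul_left h1

theorem not_dvd_cop {p n : ℕ} (hp : p.Prime) (hn : n ≠ 0) : ¬ p ∣ cop p n :=
  Nat.not_dvd_ordCompl hp hn

theorem cop_dvd_cop {p a b : ℕ} (hp : p.Prime) (ha : a ≠ 0) (h : a ∣ b) : cop p a ∣ cop p b :=
  dvd_cop hp ((Nat.div_dvd_of_dvd (part_dvd p a)).trans h) (not_dvd_cop hp ha)

theorem cop_mul {p a b : ℕ} (ha : a ≠ 0) (hb : b ≠ 0) : cop p (a * b) = cop p a * cop p b := by
  unfold cop
  rw [part_mul ha hb, Nat.mul_div_mul_comm (part_dvd p a) (part_dvd p b)]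

theorem cop_one (p : ℕ) : cop p 1 = 1 := by
  unfold cop; rw [part_one]

theorem cop_prod {ι : Type*} {p : ℕ} (s : Finset ι) (g : ι → ℕ) (h : ∀ i ∈ s, g i ≠ 0) :
    cop p (∏ i ∈ s, g i) = ∏ i ∈ s, cop p (g i) := by
  classical
  induction s using Finset.induction_on with
  | empty => simp [cop_one]
  | insert a s ha ih =>
    rw [Finset.prod_insert ha, Finset.prod_insert ha,
      cop_mul (h a (Finset.mem_insert_self _ _))
        (Finset.prod_ne_zero_iff.2 fun i hi => h i (Finset.mem_insert_of_mem hi)),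
      ih fun i hi => h i (Finset.mem_insert_of_mem hi)]

/-- The reduction for `p` prime to the characteristic. -/
theorem core {p c d X A : ℕ} (hp : p.Prime) (hd0 : d ≠ 0) (hX0 : X ≠ 0)
    (hA0 : A ≠ 0) (h : d * c = X * A) (hX : ¬ p ∣ X) (hlt : part p A * cop p d < X * cop p A) :
    (part p c) ^ 2 < c := by
  have hc0 : c ≠ 0 := by
    rintro rfl
    rw [mul_zero] at h
    exact mul_ne_zero hX0 hA0 h.symm
  have h1 : part p d * part p c = part p A := by
    rw [← part_mul hd0 hc0, h, part_mul hX0 hA0, part_eq_one hX, one_mul]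
  have hdp := part_pos hp d
  have hcp := part_pos hp c
  have h2 : c * cop p d = X * part p c * cop p A := by
    have h3 : part p d * (c * cop p d) = part p d * (X * part p c * cop p A) := by
      calc part p d * (c * cop p d) = (part p d * cop p d) * c := by ring
        _ = X * (part p A * cop p A) := by rw [part_mul_cop, part_mul_cop, h]
        _ = X * (part p d * part p c * cop p A) := by rw [h1]
        _ = _ := by ring
    exact Nat.eq_of_mul_eq_mul_left hdp h3
  have h4 : part p c ≤ part p A := by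
    rw [← h1]; exact Nat.le_mul_of_pos_left _ hdp
  have h5 : part p c * cop p d < X * cop p A := lt_of_le_of_lt (Nat.mul_le_mul_right _ h4) hlt
  have h6 : (part p c) ^ 2 * cop p d < c * cop p d := by
    rw [h2]
    calc (part p c) ^ 2 * cop p d = part p c * (part p c * cop p d) := by ring
      _ < part p c * (X * cop p A) := Nat.mul_lt_mul_of_pos_left h5 hcp
      _ = _ := by ring
  exact lt_of_mul_lt_mul_right h6 (Nat.zero_le _)

/-- The reduction for `p` dividing `q`. -/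
theorem core' {p c d X A : ℕ} (hp : p.Prime) (hd0 : d ≠ 0) (hX0 : X ≠ 0) (hA0 : A ≠ 0)
    (h : d * c = X * A) (hA : ¬ p ∣ A) (hlt : d * X < A) : (part p c) ^ 2 < c := by
  have hc0 : c ≠ 0 := by
    rintro rfl
    rw [mul_zero] at h
    exact mul_ne_zero hX0 hA0 h.symm
  have h1 : part p d * part p c = part p X := by
    rw [← part_mul hd0 hc0, h, part_mul hX0 hA0, part_eq_one hA, mul_one]
  have hdp := part_pos hp d
  have h4 : part p c ≤ X := by
    refine le_trans ?_ (part_le hX0 (p := p))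
    rw [← h1]; exact Nat.le_mul_of_pos_left _ hdp
  have h5 : d * (part p c) ^ 2 < d * c := by
    rw [h]
    calc d * (part p c) ^ 2 ≤ d * X ^ 2 := by gcongr
      _ = X * (d * X) := by ring
      _ < X * A := Nat.mul_lt_mul_of_pos_left hlt (Nat.pos_of_ne_zero hX0)
  exact lt_of_mul_lt_mul_left h5 (Nat.zero_le _)

section steps

variable {p : ℕ} {Q : ℤ} {q : ℕ}

/-- The left side. -/
def L (p : ℕ) (Q : ℤ) (k : ℕ) : ℕ := cop p (f Q 1) * ∏ i ∈ range k, part p (f Q (i + 2))

/-- The right side. -/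
def R (p : ℕ) (Q : ℤ) (q k : ℕ) : ℕ := ∏ i ∈ range k, (q ^ (i + 1) * cop p (f Q (i + 2)))

theorem L_succ (k : ℕ) : L p Q (k + 1) = L p Q k * part p (f Q (k + 2)) := by
  unfold L; rw [prod_range_succ]; ring

theorem R_succ (k : ℕ) : R p Q q (k + 1) = R p Q q k * (q ^ (k + 1) * cop p (f Q (k + 2))) := by
  unfold R; rw [prod_range_succ]

/-- Steps from a base. -/
theorem L_lt_R_of_base (hp : p.Prime) {k0 : ℕ} (hbase : L p Q k0 < R p Q q k0)
    (hstep : ∀ i, k0 ≤ i → part p (f Q (i + 2)) ≤ q ^ (i + 1) * cop p (f Q (i + 2))) :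
    ∀ k, k0 ≤ k → L p Q k < R p Q q k := by
  intro k hk
  induction k, hk using Nat.le_induction with
  | base => exact hbase
  | succ k hk ih =>
    rw [L_succ, R_succ]
    exact Nat.mul_lt_mul_of_lt_of_le ih (hstep k hk) (lt_of_lt_of_le (part_pos hp _) (hstep k hk))

/-- Steps from a base with one exceptional index `e0`. -/
theorem L_lt_R_of_base' (hp : p.Prime) {k0 e0 : ℕ} (hbase : 2 * L p Q k0 < R p Q q k0)
    (hstep : ∀ i, k0 ≤ i → i ≠ e0 → part p (f Q (i + 2)) ≤ q ^ (i + 1) * cop p (f Q (i + 2)))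
    (hexc : part p (f Q (e0 + 2)) ≤ 2 * (q ^ (e0 + 1) * cop p (f Q (e0 + 2)))) :
    ∀ k, k0 ≤ k → L p Q k < R p Q q k := by
  have key : ∀ k, k0 ≤ k → (k ≤ e0 → 2 * L p Q k < R p Q q k) ∧ L p Q k < R p Q q k := by
    intro k hk
    induction k, hk using Nat.le_induction with
    | base => exact ⟨fun _ => hbase, by omega⟩
    | succ k hk ih =>
      rw [L_succ, R_succ]
      by_cases hke : k = e0
      · subst hke
        refine ⟨fun h => by omega, ?_⟩
        have h1 := ih.1 le_rfl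
        have h2 : L p Q k * part p (f Q (k + 2)) ≤
            (2 * L p Q k) * (q ^ (k + 1) * cop p (f Q (k + 2))) := by
          calc _ ≤ L p Q k * (2 * (q ^ (k + 1) * cop p (f Q (k + 2)))) := Nat.mul_le_mul_left _ hexc
            _ = _ := by ring
        have h3 : 0 < q ^ (k + 1) * cop p (f Q (k + 2)) := by
          rcases Nat.eq_zero_or_pos (q ^ (k + 1) * cop p (f Q (k + 2))) with h0 | h0
          · exfalso
            rw [h0] at hexc
            have := part_pos hp (f Q (k + 2))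
            omega
          · exact h0
        exact lt_of_le_of_lt h2 (Nat.mul_lt_mul_of_pos_right h1 h3)
      · have hs := hstep k hk hke
        have hpos := lt_of_lt_of_le (part_pos hp _) hs
        refine ⟨fun h => ?_, Nat.mul_lt_mul_of_lt_of_le ih.2 hs hpos⟩
        have h1 := ih.1 (by omega)
        calc 2 * (L p Q k * part p (f Q (k + 2))) = (2 * L p Q k) * part p (f Q (k + 2)) := by ring
          _ < _ := Nat.mul_lt_mul_of_lt_of_le h1 hs hpos
  exact fun k hk => (key k hk).2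

/-- Conclusion of the induction. -/
theorem fin_of_L_lt_R (hp : p.Prime) (hQ : 2 ≤ Q.natAbs) (hq : ¬ p ∣ q) (hq0 : q ≠ 0) {k c d : ℕ}
    (hd0 : d ≠ 0) (hd : d ∣ f Q 1)
    (h : d * c = (∏ i ∈ range k, q ^ (i + 1)) * ∏ i ∈ range k, f Q (i + 2))
    (hLR : L p Q k < R p Q q k) : (part p c) ^ 2 < c := by
  have hne : ∀ i ∈ range k, f Q (i + 2) ≠ 0 := fun i _ => f_ne_zero hQ (by omega)
  have hA0 : ∏ i ∈ range k, f Q (i + 2) ≠ 0 := Finset.prod_ne_zero_iff.2 hne
  have hX0 : ∏ i ∈ range k, q ^ (i + 1) ≠ 0 :=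
    Finset.prod_ne_zero_iff.2 fun i _ => pow_ne_zero _ hq0
  refine core hp hd0 hX0 hA0 h ?_ ?_
  · intro h1
    obtain ⟨i, -, hi⟩ := (Prime.dvd_finsetProd_iff hp.prime _).1 h1
    exact hq (hp.dvd_of_dvd_pow hi)
  · rw [part_prod _ _ hne, cop_prod _ _ hne, ← prod_mul_distrib]
    refine lt_of_le_of_lt ?_ hLR
    unfold L
    rw [mul_comm]
    exact Nat.mul_le_mul_right _ (Nat.le_of_dvd (cop_pos (f_ne_zero hQ one_ne_zero))
      (cop_dvd_cop hp hd0 hd))

end steps

/-! ### elementary inequalities -/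

theorem ineq1 {q j : ℕ} (hq : 2 ≤ q) (hj : 2 ≤ j) : (q ^ 2 - 1) * j ≤ q ^ (2 * j - 1) := by
  induction j, hj using Nat.le_induction with
  | base =>
    show (q ^ 2 - 1) * 2 ≤ q ^ 3
    have : q ^ 3 = q ^ 2 * q := by ring
    rcases Nat.lt_or_ge q 3 with h | h
    · have : q = 2 := by omega
      subst this; norm_num
    · calc (q ^ 2 - 1) * 2 ≤ q ^ 2 * 2 := Nat.mul_le_mul_right _ (Nat.sub_le _ _)
        _ ≤ q ^ 2 * q := Nat.mul_le_mul_left _ hq
        _ = _ := this.symm
  | succ j hj ih =>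
    have h1 : q ^ (2 * (j + 1) - 1) = q ^ (2 * j - 1) * q ^ 2 := by
      rw [← pow_add]; congr 1; omega
    rw [h1]
    have h4 : 4 ≤ q ^ 2 := by nlinarith
    calc (q ^ 2 - 1) * (j + 1) ≤ (q ^ 2 - 1) * (j * 4) := Nat.mul_le_mul_left _ (by omega)
      _ = ((q ^ 2 - 1) * j) * 4 := by ring
      _ ≤ q ^ (2 * j - 1) * q ^ 2 := Nat.mul_le_mul ih h4

theorem ineq2 {q i : ℕ} (hq : 2 ≤ q) (hi : 3 ≤ i) : (q - 1) * i ≤ q ^ (i - 1) := by
  obtain ⟨r, rfl⟩ : ∃ r, q = r + 1 := ⟨q - 1, by omega⟩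
  simp only [Nat.add_sub_cancel]
  induction i, hi using Nat.le_induction with
  | base => show r * 3 ≤ (r + 1) ^ 2; nlinarith [sq_nonneg ((r : ℤ) - 1), sq_nonneg (r : ℤ)]
  | succ i hi ih =>
    have h1 : (r + 1) ^ (i + 1 - 1) = (r + 1) ^ (i - 1) * (r + 1) := by
      rw [← pow_succ]; congr 1; omega
    rw [h1]
    calc r * (i + 1) ≤ (r * i) * (r + 1) := by nlinarith [Nat.zero_le r, Nat.zero_le i, mul_nonneg (Nat.zero_le r) (Nat.zero_le i)]
      _ ≤ _ := Nat.mul_le_mul_right _ ih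

theorem ineq3 {q i : ℕ} (hq : 3 ≤ q) (hi : 4 ≤ i) : (q + 1) * i ≤ q ^ (i - 1) := by
  induction i, hi using Nat.le_induction with
  | base => show (q + 1) * 4 ≤ q ^ 3; nlinarith [mul_le_mul hq hq (by norm_num) (by omega : 0 ≤ q)]
  | succ i hi ih =>
    have h1 : q ^ (i + 1 - 1) = q ^ (i - 1) * q := by
      rw [← pow_succ]; congr 1; omega
    rw [h1]
    have h2 : i + 1 ≤ i * q := by
      calc i + 1 ≤ i * 2 := by omega
        _ ≤ i * q := Nat.mul_le_mul_left _ (by omega)
    calc (q + 1) * (i + 1) ≤ (q + 1) * (i * q) := Nat.mul_le_mul_left _ h2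
      _ = ((q + 1) * i) * q := by ring
      _ ≤ _ := Nat.mul_le_mul_right _ ih

theorem ineq4 {i : ℕ} (hi : 5 ≤ i) : 3 * i ≤ 2 ^ (i - 1) := by
  induction i, hi using Nat.le_induction with
  | base => norm_num
  | succ i hi ih =>
    have h1 : 2 ^ (i + 1 - 1) = 2 ^ (i - 1) * 2 := by
      rw [← pow_succ]; congr 1; omega
    rw [h1]; omega

theorem ineq5 {q e j : ℕ} (hq : 2 ≤ q) (he : 1 ≤ e) (hj : 1 ≤ j) :
    q ^ (e - 1) * j ≤ q ^ (e * j - 1) := by
  induction j, hj using Nat.le_induction with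
  | base => simp
  | succ j hj ih =>
    have h1 : q ^ (e * (j + 1) - 1) = q ^ (e * j - 1) * q ^ e := by
      rw [← pow_add]; congr 1
      have : 1 ≤ e * j := Nat.mul_pos he hj
      rw [mul_add, mul_one]; omega
    rw [h1]
    have h2 : 2 ≤ q ^ e := le_trans hq (Nat.le_self_pow (by omega) q)
    calc q ^ (e - 1) * (j + 1) ≤ (q ^ (e - 1) * j) * 2 := by
          have : 0 < q ^ (e - 1) := by positivity
          nlinarith
      _ ≤ _ := Nat.mul_le_mul ih h2

theorem ineq6 {q e j : ℕ} (hq : 2 ≤ q) (he : 2 ≤ e) (hj : 2 ≤ j) :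
    2 * q ^ (e - 1) * j ≤ q ^ (e * j - 1) := by
  obtain ⟨m, rfl⟩ : ∃ m, j = m + 1 := ⟨j - 1, by omega⟩
  have h1 : q ^ (e * (m + 1) - 1) = q ^ (e - 1) * q ^ (e * m) := by
    rw [← pow_add]; congr 1
    rw [mul_add, mul_one]; omega
  have h2 : 4 ≤ q ^ e := by
    calc 4 ≤ q ^ 2 := by nlinarith
      _ ≤ q ^ e := Nat.pow_le_pow_right (by omega) he
  have h3 : 2 * (m + 1) ≤ q ^ (e * m) := by
    rw [pow_mul]
    calc 2 * (m + 1) ≤ 4 ^ m := by
          have hm : 1 ≤ m := by omega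
          clear h1 hj
          induction m, hm using Nat.le_induction with
          | base => norm_num
          | succ m hm ih => rw [pow_succ]; omega
      _ ≤ _ := Nat.pow_le_pow_left h2 m
  rw [h1]
  calc 2 * q ^ (e - 1) * (m + 1) = q ^ (e - 1) * (2 * (m + 1)) := by ring
    _ ≤ _ := Nat.mul_le_mul_left _ h3

end Cfsg.Agent.H675
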