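import Cfsg.Agent.H675.GoodLin

/-!
# Fact A for the linear groups, number theory
-/

set_option autoImplicit false

namespace Cfsg.Agent.H675

open Finset

section common

variable {p q : ℕ}

theorem f1 (hq : 1 ≤ q) : f (q : ℤ) 1 = q - 1 := by rw [f_nat q 1 hq, pow_one]

theorem natAbs_two_le (hq : 2 ≤ q) : 2 ≤ (q : ℤ).natAbs := by simpa using hq

theorem natAbs_neg_two_le (hq : 2 ≤ q) : 2 ≤ (-(q : ℤ)).natAbs := by simpa using hq

/-- If `k ∣ f Q i`, `p ∤ k` then `part * k ≤ f Q i`. -/
theorem part_mul_le {Q : ℤ} (hQ : 2 ≤ Q.natAbs) (hp : p.Prime) {i k : ℕ} (hi : i ≠ 0)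
    (hk : k ∣ f Q i) (hpk : ¬ p ∣ k) : part p (f Q i) * k ≤ f Q i :=
  Nat.le_of_dvd (f_pos hQ hi) (part_mul_dvd hp hk hpk)

theorem le_mul_cop {Q : ℤ} (hQ : 2 ≤ Q.natAbs) {i a b : ℕ} (hi : i ≠ 0) (h : a ≤ b) :
    a ≤ b * cop p (f Q i) :=
  h.trans (Nat.le_mul_of_pos_right _ (cop_pos (f_ne_zero hQ hi)))

theorem not_dvd_f_of_dvd (hp : p.Prime) {Q : ℤ} (hpQ : (p : ℤ) ∣ Q) {i : ℕ} (hi : i ≠ 0) :
    ¬ p ∣ f Q i := by
  intro h
  have h1 : (p : ℤ) ∣ Q ^ i - 1 := Int.natCast_dvd.2 h
  have h2 : (p : ℤ) ∣ Q ^ i := dvd_pow hpQ hi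
  have h3 : (p : ℤ) ∣ 1 := by
    have := dvd_sub h2 h1
    simpa using this
  have h4 : p ∣ 1 := by exact_mod_cast h3
  exact hp.one_lt.ne' (Nat.dvd_one.1 h4)

theorem part_le_self_of_ne {n : ℕ} (hn : n ≠ 0) : part p n ≤ n := part_le hn

/-- `2`-part of `q ^ 2 - 1`, `q` odd. -/
theorem part_two_sq (hq : 3 ≤ q) (ho : Odd q) : part 2 (q ^ 2 - 1) ≤ 2 * (q + 1) := by
  have h1 : q ^ 2 - 1 = (q - 1) * (q + 1) := by
    obtain ⟨r, rfl⟩ : ∃ r, q = r + 1 := ⟨q - 1, by omega⟩
    simp only [Nat.add_sub_cancel]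
    have : (r + 1) ^ 2 = r * (r + 1 + 1) + 1 := by ring
    omega
  rw [h1, part_mul (by omega) (by omega)]
  obtain ⟨m, hm⟩ := ho
  rcases Nat.even_or_odd m with ⟨t, ht⟩ | ⟨t, ht⟩
  · -- q + 1 ≡ 2 mod 4
    have h2 : part 2 (q + 1) = 2 := by
      have : q + 1 = 2 * (2 * t + 1) := by omega
      rw [this, part_mul (by omega) (by omega), part_eq_one (n := 2 * t + 1) (by omega), mul_one]
      unfold part
      rw [Nat.Prime.factorization_self Nat.prime_two, pow_one]
    rw [h2]
    have := part_le (p := 2) (n := q - 1) (by omega)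
    omega
  · have h2 : part 2 (q - 1) = 2 := by
      have : q - 1 = 2 * (2 * t + 1) := by omega
      rw [this, part_mul (by omega) (by omega), part_eq_one (n := 2 * t + 1) (by omega), mul_one]
      unfold part
      rw [Nat.Prime.factorization_self Nat.prime_two, pow_one]
    rw [h2]
    have := part_le (p := 2) (n := q + 1) (by omega)
    omega

end common

/-! ### PSL(2, q) -/

theorem lin_two {q c d : ℕ} (hq : 4 ≤ q) (hd : (Odd q ∧ d = 2) ∨ (Even q ∧ d = 1))
    (h : d * c = q * (q ^ 2 - 1)) : H678.Good c := by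
  have h1 : q ^ 2 - 1 = (q - 1) * (q + 1) := by
    obtain ⟨r, rfl⟩ : ∃ r, q = r + 1 := ⟨q - 1, by omega⟩
    simp only [Nat.add_sub_cancel]
    have : (r + 1) ^ 2 = r * (r + 1 + 1) + 1 := by ring
    omega
  obtain ⟨r, rfl⟩ : ∃ r, q = r + 1 := ⟨q - 1, by omega⟩
  simp only [Nat.add_sub_cancel] at h1
  intro p hp
  change (part p c) ^ 2 < c
  have hc0 : c ≠ 0 := by
    rintro rfl
    rw [mul_zero, h1] at h
    have : 0 < (r + 1) * (r * (r + 1 + 1)) := by
      have : 0 < r := by omega
      positivity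
    omega
  have hd0 : d ≠ 0 := by rcases hd with h | h <;> omega
  by_cases hpq : p ∣ r + 1
  · -- defining characteristic
    refine core' hp hd0 (by omega) ?_ h ?_ ?_
    · rw [h1]; have : 0 < r * (r + 1 + 1) := by
        have : 0 < r := by omega
        positivity
      omega
    · rw [h1]
      intro h2
      rcases (Nat.Prime.dvd_mul hp).1 h2 with h3 | h3
      · have : p ∣ 1 := by
          have := Nat.dvd_sub hpq h3
          simpa using this
        exact hp.one_lt.ne' (Nat.dvd_one.1 this)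
      · have : p ∣ 1 := by
          have := Nat.dvd_sub h3 hpq
          simpa using this
        exact hp.one_lt.ne' (Nat.dvd_one.1 this)
    · rw [h1]
      rcases hd with ⟨_, rfl⟩ | ⟨_, rfl⟩ <;> nlinarith
  · -- a bound for the part
    have hpart : part p d * part p c = part p (r * (r + 1 + 1)) := by
      rw [← part_mul hd0 hc0, h, h1, part_mul (by omega) (by
        have : 0 < r * (r + 1 + 1) := by
          have : 0 < r := by omega
          positivity
        omega), part_eq_one hpq, one_mul]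
    have hpart2 : part p d * part p c = part p r * part p (r + 1 + 1) := by
      rw [hpart, part_mul (by omega) (by omega)]
    rw [h1] at h
    by_cases hp2 : p = 2
    · subst hp2
      have ho : Odd (r + 1) := by
        rw [← Nat.not_even_iff_odd, even_iff_two_dvd]; exact hpq
      have hd2 : d = 2 := by
        rcases hd with ⟨_, h⟩ | ⟨h, _⟩
        · exact h
        · exact absurd h (Nat.not_even_iff_odd.2 ho)
      subst hd2
      have h2 := part_two_sq (q := r + 1) (by omega) ho
      rw [h1, ← hpart] at h2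
      have h3 : part 2 2 = 2 := by
        unfold part; rw [Nat.Prime.factorization_self Nat.prime_two, pow_one]
      rw [h3] at h2
      have h4 : part 2 c ≤ r + 1 + 1 := by omega
      obtain ⟨m, hm⟩ := ho
      have h5 : 2 * (part 2 c) ^ 2 < 2 * c := by
        rw [h]
        have : (part 2 c) ^ 2 ≤ (r + 1 + 1) ^ 2 := Nat.pow_le_pow_left h4 2
        have hr : 4 ≤ r := by omega
        nlinarith
      omega
    · -- p odd
      have hcase : part p r = 1 ∨ part p (r + 1 + 1) = 1 := by
        by_cases ha : p ∣ r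
        · right
          apply part_eq_one
          intro hb
          have h3 : p ∣ 2 := by
            have := Nat.dvd_sub hb ha
            have e : r + 1 + 1 - r = 2 := by omega
            rwa [e] at this
          exact hp2 ((Nat.prime_dvd_prime_iff_eq hp Nat.prime_two).1 h3)
        · left; exact part_eq_one ha
      have hpd : part p d = 1 := by
        apply part_eq_one
        rcases hd with ⟨_, rfl⟩ | ⟨_, rfl⟩
        · intro h3; exact hp2 ((Nat.prime_dvd_prime_iff_eq hp Nat.prime_two).1 h3)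
        · intro h3; exact hp.one_lt.ne' (Nat.dvd_one.1 h3)
      rw [hpd, one_mul] at hpart2
      have hp2' : ¬ p ∣ 2 := fun h3 => hp2 ((Nat.prime_dvd_prime_iff_eq hp Nat.prime_two).1 h3)
      rcases hd with ⟨ho, rfl⟩ | ⟨he, rfl⟩
      · obtain ⟨m, hm⟩ := ho
        have ha : part p r * 2 ≤ r :=
          Nat.le_of_dvd (by omega) (part_mul_dvd hp ⟨m, by omega⟩ hp2')
        have hb : part p (r + 1 + 1) * 2 ≤ r + 1 + 1 :=
          Nat.le_of_dvd (by omega) (part_mul_dvd hp ⟨m + 1, by omega⟩ hp2')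
        have hle : 2 * part p c ≤ r + 1 + 1 := by
          rw [hpart2]
          rcases hcase with h3 | h3 <;> rw [h3] <;> omega
        nlinarith
      · have ha : part p r ≤ r := part_le (by omega)
        have hb : part p (r + 1 + 1) ≤ r + 1 + 1 := part_le (by omega)
        have hle : part p c ≤ r + 1 + 1 := by
          rw [hpart2]
          rcases hcase with h3 | h3 <;> rw [h3] <;> omega
        have : (part p c) ^ 2 ≤ (r + 1 + 1) ^ 2 := Nat.pow_le_pow_left hle 2
        nlinarith

/-! ### PSL(n, q), `n ≥ 3` -/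

/-- the product of the `q ^ i - 1` is large -/
theorem lin_big {q k : ℕ} (hq : 2 ≤ q) (hk : 1 ≤ k) :
    (q - 1) * ∏ i ∈ range k, q ^ (i + 1) < ∏ i ∈ range k, f (q : ℤ) (i + 2) := by
  obtain ⟨r, rfl⟩ : ∃ r, q = r + 1 := ⟨q - 1, by omega⟩
  simp only [Nat.add_sub_cancel]
  induction k, hk using Nat.le_induction with
  | base =>
    rw [prod_range_one, prod_range_one, f_nat _ _ (by omega)]
    simp only [Nat.zero_add, pow_one]
    have : (r + 1) ^ 2 = r * (r + 1) + (r + 1) := by ring
    omega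
  | succ k hk ih =>
    rw [prod_range_succ, prod_range_succ, ← mul_assoc]
    have h1 : (r + 1) ^ (k + 1) ≤ f ((r + 1 : ℕ) : ℤ) (k + 2) := by
      rw [f_nat _ _ (by omega)]
      have h2 : (r + 1) ^ (k + 2) = (r + 1) ^ (k + 1) * (r + 1) := by ring
      have h3 : 0 < (r + 1) ^ (k + 1) := by positivity
      have h4 : (r + 1) ^ (k + 1) * 2 ≤ (r + 1) ^ (k + 2) := by
        rw [h2]; exact Nat.mul_le_mul_left _ (by omega)
      omega
    exact Nat.mul_lt_mul_of_lt_of_le ih h1 (lt_of_lt_of_le (by positivity) h1)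

theorem lin_odd {p q : ℕ} (hp : p.Prime) (hq : 2 ≤ q) (hpq : ¬ p ∣ q) (hp2 : p ≠ 2) {k : ℕ}
    (hk : 2 ≤ k) : L p q k < R p q q k := by
  have hQ := natAbs_two_le hq
  have hodd : Odd p := hp.odd_of_ne_two hp2
  have hpQ : ¬ (p : ℤ) ∣ (q : ℤ) := by rw [Int.natCast_dvd_natCast]; exact hpq
  have hp2' : ¬ p ∣ 2 := fun h3 => hp2 ((Nat.prime_dvd_prime_iff_eq hp Nat.prime_two).1 h3)
  obtain ⟨e, he⟩ : ∃ e, e = orderOf ((q : ℤ) : ZMod p) := ⟨_, rfl⟩
  have he0 : e ≠ 0 := by rw [he]; exact orderOf_ne_zero hp hpQ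
  have hdvd : p ∣ f q e := by rw [he]; exact dvd_f_orderOf
  have hmul : ∀ j, j ≠ 0 → part p (f q (e * j)) = part p (f q e) * part p j :=
    fun j hj => part_f_mul hp hodd hQ hpQ he0 hdvd hj
  have hone : ∀ i, ¬ e ∣ i → part p (f q i) = 1 := fun i hi =>
    part_f_eq_one_of_not_dvd (by rw [← he]; exact hi)
  have hf1 : f (q : ℤ) 1 = q - 1 := f1 (by omega)
  have hq1 : q - 1 ≠ 0 := by omega
  rcases Nat.lt_or_ge e 2 with h1 | h1
  · -- `e = 1`
    have he1 : e = 1 := by omega
    subst he1
    have hm : ∀ i, i ≠ 0 → part p (f q i) = part p (q - 1) * part p i := by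
      intro i hi
      have := hmul i hi
      rw [one_mul, hf1] at this
      exact this
    have hg1 : part p (q - 1) ≤ q - 1 := part_le hq1
    refine L_lt_R_of_base (k0 := 1) hp ?_ ?_ k (by omega)
    · unfold L R
      rw [prod_range_one, prod_range_one, hf1, hm _ (by omega), part_eq_one (n := 0 + 2) hp2', mul_one]
      have h3 : cop p (q - 1) ≤ cop p (f q 2) :=
        Nat.le_of_dvd (cop_pos (f_ne_zero hQ (by omega)))
          (cop_dvd_cop hp hq1 (by rw [← hf1]; exact f_dvd _ (one_dvd _)))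
      have h4 := cop_pos (p := p) hq1
      simp only [Nat.zero_add, pow_one]
      calc cop p (q - 1) * part p (q - 1) ≤ cop p (f q 2) * part p (q - 1) := Nat.mul_le_mul_right _ h3
        _ < cop p (f q 2) * q := Nat.mul_lt_mul_of_pos_left (by omega) (lt_of_lt_of_le h4 h3)
        _ = _ := mul_comm _ _
    · intro i hi
      refine le_mul_cop hQ (by omega) ?_
      rw [hm _ (by omega)]
      calc part p (q - 1) * part p (i + 2) ≤ (q - 1) * (i + 2) :=
            Nat.mul_le_mul hg1 (part_le (by omega))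
        _ ≤ _ := ineq2 hq (by omega)
  · have hpq1 : ¬ p ∣ q - 1 := by
      intro h2
      have h3 : p ∣ f q 1 := by rw [hf1]; exact h2
      have h4 := part_f_eq_one_of_not_dvd (p := p) (Q := q) (i := 1) (by
        rw [← he]; intro h5; have := Nat.dvd_one.1 h5; omega)
      have h5 : p ≤ part p (f q 1) := by
        have := dvd_part (k := 1) hp (f_ne_zero hQ one_ne_zero) (by rwa [pow_one])
        simpa using this
      have := hp.one_lt
      omega
    have hc1 : cop p (f q 1) = q - 1 := by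
      unfold cop
      rw [hf1, part_eq_one hpq1, Nat.div_one]
    have hqd : ∀ i, (q - 1) ∣ f q i := fun i => by rw [← hf1]; exact f_dvd _ (one_dvd _)
    rcases Nat.lt_or_ge e 3 with h2 | h2
    · -- `e = 2`
      have he2 : e = 2 := by omega
      subst he2
      have hf2 : f (q : ℤ) 2 = q ^ 2 - 1 := f_nat q 2 (by omega)
      refine L_lt_R_of_base (k0 := 2) hp ?_ ?_ k hk
      · unfold L R
        rw [prod_range_succ, prod_range_one, prod_range_succ, prod_range_one, hc1]
        simp only [Nat.zero_add, Nat.reduceAdd]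
        have h3 : part p (f q 3) = 1 := hone 3 (by decide)
        have h4 : cop p (f q 3) = q ^ 3 - 1 := by
          unfold cop; rw [h3, Nat.div_one, f_nat q 3 (by omega)]
        rw [h3, mul_one, h4, pow_one]
        have h5 : part p (f q 2) ≤ q ^ 2 - 1 := by
          rw [← hf2]; exact part_le (f_ne_zero hQ (by omega))
        have h6 : 0 < cop p (f q 2) := cop_pos (f_ne_zero hQ (by omega))
        obtain ⟨r, rfl⟩ : ∃ r, q = r + 1 := ⟨q - 1, by omega⟩
        simp only [Nat.add_sub_cancel]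
        have h7 : part p (f ((r + 1 : ℕ) : ℤ) 2) < (r + 1) ^ 2 := by
          have : 0 < (r + 1) ^ 2 := by positivity
          omega
        have h8 : r ≤ (r + 1) ^ 3 - 1 := by
          have : (r + 1) ^ 3 = r ^ 3 + 3 * r ^ 2 + 3 * r + 1 := by ring
          omega
        have h9 : 0 < (r + 1) ^ 3 - 1 := by omega
        calc r * part p (f ((r + 1 : ℕ) : ℤ) 2) < ((r + 1) ^ 3 - 1) * (r + 1) ^ 2 := by
              exact Nat.mul_lt_mul_of_le_of_lt h8 h7 h9
          _ ≤ ((r + 1) ^ 3 - 1) * (r + 1) ^ 2 * ((r + 1) * cop p (f ((r + 1 : ℕ) : ℤ) 2)) :=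
              Nat.le_mul_of_pos_right _ (by positivity)
          _ = _ := by ring
      · intro i hi
        refine le_mul_cop hQ (by omega) ?_
        by_cases h3 : 2 ∣ i + 2
        · obtain ⟨j, hj⟩ := h3
          rw [hj, hmul j (by omega)]
          have h4 : part p (f q 2) ≤ q ^ 2 - 1 := by
            rw [← hf2]; exact part_le (f_ne_zero hQ (by omega))
          have h5 : i + 1 = 2 * j - 1 := by omega
          rw [h5]
          exact (Nat.mul_le_mul h4 (part_le (by omega))).trans (ineq1 hq (by omega))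
        · rw [hone _ h3]
          exact Nat.one_le_pow _ _ (by omega)
    · -- `e ≥ 3`
      have hf2 : f (q : ℤ) 2 = q ^ 2 - 1 := f_nat q 2 (by omega)
      have hge : part p (f q e) * (q - 1) ≤ q ^ e - 1 := by
        have h3 := part_mul_le hQ hp he0 (hqd e) hpq1
        exact h3.trans_eq (f_nat q e (by omega))
      have hge2 : part p (f q e) ≤ 2 * q ^ (e - 1) := by
        -- `(q ^ e - 1) / (q - 1) ≤ 2 q ^ (e-1)`
        have h3 : q ^ e = q ^ (e - 1) * q := by
          rw [← pow_succ]; congr 1; omega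
        obtain ⟨r, rfl⟩ : ∃ r, q = r + 1 := ⟨q - 1, by omega⟩
        simp only [Nat.add_sub_cancel] at hge
        rw [h3] at hge
        have hr : 1 ≤ r := by omega
        by_contra h4
        push Not at h4
        have h5 : 2 * (r + 1) ^ (e - 1) * r < part p (f ((r + 1 : ℕ) : ℤ) e) * r :=
          Nat.mul_lt_mul_of_pos_right h4 hr
        have h6 : (r + 1) ^ (e - 1) * (r + 1) ≤ 2 * (r + 1) ^ (e - 1) * r := by
          nlinarith [Nat.zero_le ((r + 1) ^ (e - 1))]
        omega
      refine L_lt_R_of_base' (k0 := 1) (e0 := e - 2) hp ?_ ?_ ?_ k (by omega)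
      · unfold L R
        rw [prod_range_one, prod_range_one, hc1]
        simp only [Nat.zero_add, pow_one]
        have h3 : part p (f q 2) = 1 := hone 2 (fun h => by have := Nat.le_of_dvd (by omega) h; omega)
        have h4 : cop p (f q 2) = q ^ 2 - 1 := by
          unfold cop; rw [h3, Nat.div_one, hf2]
        rw [h3, mul_one, h4]
        obtain ⟨r, rfl⟩ : ∃ r, q = r + 1 := ⟨q - 1, by omega⟩
        simp only [Nat.add_sub_cancel]
        have : (r + 1) ^ 2 = r ^ 2 + 2 * r + 1 := by ring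
        rw [this]
        have : r ^ 2 + 2 * r + 1 - 1 = r ^ 2 + 2 * r := by omega
        rw [this]
        have hr : 1 ≤ r := by omega
        nlinarith
      · intro i hi hie
        refine le_mul_cop hQ (by omega) ?_
        by_cases h3 : e ∣ i + 2
        · obtain ⟨j, hj⟩ := h3
          have hj0 : j ≠ 0 := by rintro rfl; omega
          have hj1 : j ≠ 1 := by rintro rfl; omega
          have h5 : i + 1 = e * j - 1 := by omega
          rw [hj, hmul j hj0, h5]
          exact (Nat.mul_le_mul hge2 (part_le (by omega))).trans (ineq6 hq (by omega) (by omega))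
        · rw [hone _ h3]
          exact Nat.one_le_pow _ _ (by omega)
      · have h3 : e - 2 + 2 = e := by omega
        have h4 : e - 2 + 1 = e - 1 := by omega
        rw [h3, h4, ← mul_assoc]
        exact le_mul_cop hQ he0 hge2

theorem lin_two_part {q : ℕ} (hq : 2 ≤ q) (hpq : ¬ 2 ∣ q) {k : ℕ}
    (hk : 2 ≤ k) : L 2 q k < R 2 q q k := by
  have hQ := natAbs_two_le hq
  have hpQ : ¬ (2 : ℤ) ∣ (q : ℤ) := by
    have := Int.natCast_dvd_natCast (m := 2) (n := q)
    rw [show ((2 : ℕ) : ℤ) = 2 from rfl] at this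
    rw [this]; exact hpq
  have hf1 : f (q : ℤ) 1 = q - 1 := f1 (by omega)
  have hf2 : f (q : ℤ) 2 = q ^ 2 - 1 := f_nat q 2 (by omega)
  have hf3 : f (q : ℤ) 3 = q ^ 3 - 1 := f_nat q 3 (by omega)
  have hg3 : part 2 (f q 3) = part 2 (f q 1) := part_f_two_odd hQ hpQ (by decide)
  have hg1le : part 2 (f q 1) ≤ q - 1 := by
    rw [← hf1]; exact part_le (f_ne_zero hQ one_ne_zero)
  have hg2le : part 2 (f q 2) ≤ q ^ 2 - 1 := by
    rw [← hf2]; exact part_le (f_ne_zero hQ (by omega))
  refine L_lt_R_of_base (k0 := 2) Nat.prime_two ?_ ?_ k hk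
  · unfold L R
    rw [prod_range_succ, prod_range_one, prod_range_succ, prod_range_one]
    simp only [Nat.zero_add, Nat.reduceAdd, pow_one]
    have h1 : part 2 (f q 1) * cop 2 (f q 1) = q - 1 := by rw [part_mul_cop, hf1]
    have h2 : part 2 (f q 3) * cop 2 (f q 3) = q ^ 3 - 1 := by rw [part_mul_cop, hf3]
    have h3 : cop 2 (f q 1) * (part 2 (f q 2) * part 2 (f q 3)) = (q - 1) * part 2 (f q 2) := by
      rw [hg3, ← h1]; ring
    rw [h3]
    have h6 : 0 < cop 2 (f q 2) := cop_pos (f_ne_zero hQ (by omega))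
    have h7 : 0 < cop 2 (f q 3) := cop_pos (f_ne_zero hQ (by omega))
    -- `cop 2 (f 3) > q ^ 2 / ...`; enough: `q - 1 ≤ cop 2 (f 3)`
    have h8 : q - 1 ≤ cop 2 (f q 3) := by
      by_contra h9
      push Not at h9
      have h10 : part 2 (f q 3) * cop 2 (f q 3) ≤ (q - 1) * (q - 1) := by
        rw [hg3]; exact Nat.mul_le_mul hg1le h9.le
      rw [h2] at h10
      obtain ⟨r, rfl⟩ : ∃ r, q = r + 1 := ⟨q - 1, by omega⟩
      simp only [Nat.add_sub_cancel] at h10
      have : (r + 1) ^ 3 = r ^ 3 + 3 * (r * r) + 3 * r + 1 := by ring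
      have : 0 ≤ r ^ 3 := by positivity
      have hr : 1 ≤ r := by omega
      omega
    have h9 : part 2 (f q 2) < q ^ 2 := by
      have : 0 < q ^ 2 := by positivity
      omega
    calc (q - 1) * part 2 (f q 2) < cop 2 (f q 3) * q ^ 2 :=
          Nat.mul_lt_mul_of_le_of_lt h8 h9 h7
      _ ≤ cop 2 (f q 3) * q ^ 2 * (q * cop 2 (f q 2)) := Nat.le_mul_of_pos_right _ (by positivity)
      _ = _ := by ring
  · intro i hi
    refine le_mul_cop hQ (by omega) ?_
    rcases Nat.even_or_odd (i + 2) with ⟨j, hj⟩ | ho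
    · have hj' : i + 2 = 2 * j := by omega
      rw [hj', part_f_two hQ hpQ (by omega)]
      have h5 : i + 1 = 2 * j - 1 := by omega
      rw [h5]
      exact (Nat.mul_le_mul hg2le (part_le (by omega))).trans (ineq1 hq (by omega))
    · rw [part_f_two_odd hQ hpQ ho]
      calc part 2 (f q 1) ≤ q := by omega
        _ ≤ q ^ (i + 1) := Nat.le_self_pow (by omega) q

/-- **Fact A, linear groups, `n = k + 1 ≥ 3`.** -/
theorem lin_good {q k c d : ℕ} (hq : 2 ≤ q) (hk : 2 ≤ k) (hd0 : d ≠ 0) (hd : d ∣ q - 1)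
    (h : d * c = (∏ i ∈ range k, q ^ (i + 1)) * ∏ i ∈ range k, (q ^ (i + 2) - 1)) :
    H678.Good c := by
  have hQ := natAbs_two_le hq
  have h' : d * c = (∏ i ∈ range k, q ^ (i + 1)) * ∏ i ∈ range k, f (q : ℤ) (i + 2) := by
    rw [h]; congr 1
    exact Finset.prod_congr rfl fun i _ => (f_nat q _ (by omega)).symm
  intro p hp
  change (part p c) ^ 2 < c
  by_cases hpq : p ∣ q
  · refine core' hp hd0 ?_ ?_ h' ?_ ?_
    · exact Finset.prod_ne_zero_iff.2 fun i _ => pow_ne_zero _ (by omega)
    · exact Finset.prod_ne_zero_iff.2 fun i _ => f_ne_zero hQ (by omega)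
    · intro h1
      obtain ⟨i, -, hi⟩ := (Prime.dvd_finsetProd_iff hp.prime _).1 h1
      exact not_dvd_f_of_dvd hp (Int.natCast_dvd_natCast.2 hpq) (by omega) hi
    · exact lt_of_le_of_lt (Nat.mul_le_mul_right _ (Nat.le_of_dvd (by omega) hd))
        (lin_big hq (by omega))
  · refine fin_of_L_lt_R hp hQ hpq (by omega) hd0 (by rw [f1 (by omega)]; exact hd) h' ?_
    by_cases hp2 : p = 2
    · subst hp2; exact lin_two_part hq hpq hk
    · exact lin_odd hp hq hpq hp2 hk

end Cfsg.Agent.H675
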